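import Cfsg.Agent.Lib.G2Four.Data
import Cfsg.Agent.Lib.SporPres.Suz.ChevIso
import Cfsg.Agent.Lib.HallJanko.Hundred
import Cfsg.Agent.Lib.Chev.FieldAut
import Cfsg.Agent.Lib.Chev.Data.G2

/-! # G₂(4) on the 416 cosets of J₂ -/

set_option autoImplicit false
set_option maxRecDepth 100000

namespace Cfsg.Agent.Lib.G2Four

open Cfsg.Agent.Lib.Coset

local notation "tab" => SporPres.Suz.tab
local notation "good" => SporPres.Suz.good

theorem outer_ok : outer.ok tab = true := by decide +kernel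
theorem hundred_ok : hundred.ok tab = true := by decide +kernel
theorem lines_ok : lines.ok tab = true := by decide +kernel

theorem facts_ok : (decide (outer.b < SporPres.Suz.tab.size) && decide (hundred.b < SporPres.Suz.tab.size) &&
    decide (lines.b < SporPres.Suz.tab.size) && (outer.W == SporPres.Suz.subWords) && (lines.W == hundred.W) &&
    (hundred.W.all fun w => Nat.beq (SporPres.Suz.tab.app w outer.b) outer.b && outer.W.contains w &&
      w.all fun g => decide (g < SporPres.Suz.tab.gens)) &&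
    (outer.ss.length == 415) &&
    (hundredPts.length == 100) && (hundredPts.all fun q => decide (q < SporPres.Suz.tab.size)) &&
    decide hundredPts.Nodup &&
    (hundredWords.length == 4) &&
    ((List.range 5).all fun a => hundred.W.contains [a]) &&
    (hundredWords.all fun w => w.all fun a => decide (a < 5)) &&
    ((List.range 4).all fun a => (List.range 100).all fun i =>
      SporPres.Suz.tab.app (hundredWords.getD a []) (hundredPts.getD i 0) ==
        hundredPts.getD (HallJanko.im (HallJanko.gen0 a) i) 0) &&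
    ((Tab.pts outer.b outer.ss).all fun q => q == outer.b ||
      (Tab.pts hundred.b hundred.ss).contains q || (Tab.pts lines.b lines.ss).contains q)) = true := by
  decide +kernel

/-- G₂(4) on 1782 points. -/
noncomputable abbrev g6 : Subgroup (Equiv.Perm (Fin SporPres.Suz.tab.size)) := outer.grp good

/-- J₂ on 1782 points. -/
noncomputable abbrev j2 : Subgroup (Equiv.Perm (Fin SporPres.Suz.tab.size)) := hundred.grp good

theorem lt_gens {w : List ℕ} (h : ∀ a ∈ w, a < 5) : ∀ g ∈ w, g < SporPres.Suz.tab.gens := fun g hg =>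
  lt_of_lt_of_le (h g hg) (by decide +kernel)

theorem word_mem_j2 : ∀ {w : List ℕ}, (∀ a ∈ w, a < 5) → ev (Tab.perm tab good) w ∈ j2 := by
  intro w
  induction w with
  | nil => intro _; rw [ev_nil]; exact one_mem _
  | cons a w ih =>
    intro h
    rw [ev_cons]
    refine mul_mem (Subgroup.subset_closure ⟨[a], ?_, by rw [ev_cons, ev_nil, mul_one]⟩)
      (ih fun b hb => h b (List.mem_cons_of_mem _ hb))
    have hf := facts_ok
    simp only [Bool.and_eq_true, List.all_eq_true, List.mem_range, List.contains_iff_mem] at hf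
    exact hf.1.1.1.2 a (h a (List.mem_cons_self ..))

/-- The point fixed by J₂. -/
def beta : Fin SporPres.Suz.tab.size := ⟨outer.b, by
  have h := facts_ok
  simp only [Bool.and_eq_true, decide_eq_true_eq] at h
  exact h.1.1.1.1.1.1.1.1.1.1.1.1.1.1⟩

theorem g6_eq : (SporPres.Suz.sub 6).map SporPres.Suz.act = g6 := by
  have hf := facts_ok
  simp only [Bool.and_eq_true, beq_iff_eq] at hf
  rw [SporPres.Suz.sub_eq, map_wordSub SporPres.Suz.act SporPres.Suz.φ (Tab.perm tab good) SporPres.Suz.act_φ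
    (by decide +kernel), g6, Prim.grp, hf.1.1.1.1.1.1.1.1.1.1.1.2]

/-- The two descriptions of G₂(4). -/
noncomputable def g6Equiv : ↥(SporPres.Suz.sub 6) ≃* ↥g6 :=
  ((SporPres.Suz.sub 6).equivMapOfInjective _ SporPres.Suz.card_and_inj.2).trans
    (MulEquiv.subgroupCongr g6_eq)

theorem card_g6 : Nat.card g6 = 251596800 := by
  rw [← Nat.card_congr g6Equiv.toEquiv, SporPres.Suz.card_six]

theorem j2_le : j2 ≤ g6 ⊓ MulAction.stabilizer (Equiv.Perm (Fin SporPres.Suz.tab.size)) beta := by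
  refine (Subgroup.closure_le _).2 ?_
  rintro _ ⟨w, hw, rfl⟩
  have hf := facts_ok
  simp only [Bool.and_eq_true, List.all_eq_true, List.contains_iff_mem, Nat.beq_eq, decide_eq_true_eq] at hf
  obtain ⟨⟨h1, h2⟩, h3⟩ := hf.1.1.1.1.1.1.1.1.1.2 w hw
  exact ⟨Subgroup.subset_closure ⟨w, h2, rfl⟩,
    Fin.ext ((Tab.ev_perm_apply good w h3 beta).trans h1)⟩

theorem card_stab_beta :
    Nat.card ((MulAction.stabilizer (Equiv.Perm (Fin SporPres.Suz.tab.size)) beta).subgroupOf g6) = 604800 := by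
  have hf := facts_ok
  simp only [Bool.and_eq_true, beq_iff_eq] at hf
  have hlen := hf.1.1.1.1.1.1.1.1.2
  have hok := outer_ok
  simp only [Prim.ok, Bool.and_eq_true] at hok
  have horb : (MulAction.orbit g6 beta).ncard = outer.ss.length + 1 :=
    (Tab.orbit_eq good hok.1.1.1.1.1 hok.1.1.1.1.2 (K := g6) rfl beta.2).1
  have h := Subgroup.index_mul_card (MulAction.stabilizer g6 beta)
  rw [MulAction.index_stabilizer, horb, hlen, card_g6] at h
  have e : (MulAction.stabilizer (Equiv.Perm (Fin SporPres.Suz.tab.size)) beta).subgroupOf g6 =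
      MulAction.stabilizer g6 beta := by
    ext a; rfl
  rw [e]
  omega

/-- The hundred points. -/
def pt (i : Fin 100) : Fin SporPres.Suz.tab.size := ⟨hundredPts.getD i 0, by
  have hf := facts_ok
  simp only [Bool.and_eq_true, List.all_eq_true, beq_iff_eq, decide_eq_true_eq] at hf
  rw [List.getD_eq_getElem _ _ (by rw [hf.1.1.1.1.1.1.1.2]; exact i.2)]
  exact hf.1.1.1.1.1.1.2 _ (List.getElem_mem _)⟩

theorem pt_injective : Function.Injective pt := by
  intro i j h
  have hf := facts_ok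
  simp only [Bool.and_eq_true, beq_iff_eq, decide_eq_true_eq] at hf
  have hl := hf.1.1.1.1.1.1.1.2
  have h' := congrArg Fin.val h
  simp only [pt] at h'
  rw [List.getD_eq_getElem _ _ (by rw [hl]; exact i.2), List.getD_eq_getElem _ _ (by rw [hl]; exact j.2)] at h'
  exact Fin.ext ((hf.1.1.1.1.1.2.getElem_inj_iff).1 h')

theorem rel_gen (a : Fin 4) : ∃ k ∈ j2, ∀ i, k (pt i) = pt (HallJanko.s0 a i) := by
  have hf := facts_ok
  simp only [Bool.and_eq_true, List.all_eq_true, List.mem_range, beq_iff_eq, decide_eq_true_eq] at hf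
  have hl := hf.1.1.1.1.2
  have hmem : hundredWords.getD a [] ∈ hundredWords := by
    rw [List.getD_eq_getElem _ _ (by rw [hl]; exact a.2)]; exact List.getElem_mem _
  have hw := hf.1.1.2 _ hmem
  refine ⟨_, word_mem_j2 hw, fun i => Fin.ext ?_⟩
  rw [Tab.ev_perm_apply good _ (lt_gens hw)]
  show _ = hundredPts.getD (HallJanko.s0 a i : ℕ) 0
  rw [HallJanko.s0, HallJanko.permOf_apply (HallJanko.ok_g0 a)]
  exact hf.1.2 a a.2 i i.2

theorem rel_g100 : ∀ τ ∈ HallJanko.G100, ∃ k ∈ j2, ∀ i, k (pt i) = pt (τ i) := by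
  intro τ hτ
  rw [HallJanko.G100] at hτ
  induction hτ using Subgroup.closure_induction with
  | mem x hx => obtain ⟨a, rfl⟩ := hx; exact rel_gen a
  | one => exact ⟨1, one_mem _, fun i => rfl⟩
  | mul x y _ _ hx hy =>
    obtain ⟨k, hk, hx⟩ := hx
    obtain ⟨l, hl, hy⟩ := hy
    exact ⟨k * l, mul_mem hk hl, fun i => by rw [Equiv.Perm.mul_apply, hy, hx]; rfl⟩
  | inv x _ hx =>
    obtain ⟨k, hk, hx⟩ := hx
    refine ⟨k⁻¹, inv_mem hk, fun i => ?_⟩
    rw [Equiv.Perm.inv_def, Equiv.symm_apply_eq, hx, Equiv.Perm.inv_def, Equiv.apply_symm_apply]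

theorem stab_eq_j2 : (MulAction.stabilizer (Equiv.Perm (Fin SporPres.Suz.tab.size)) beta).subgroupOf g6 =
    j2.subgroupOf g6 := by
  choose f hf1 hf2 using rel_g100
  have hle : HallJanko.G100 ≤ ⊤ := le_top
  have hinj : Function.Injective fun τ : HallJanko.G100 => (⟨f τ.1 τ.2, hf1 _ _⟩ : j2) := by
    intro x y h
    refine Subtype.ext (Equiv.ext fun i => pt_injective ?_)
    rw [← hf2 x.1 x.2 i, ← hf2 y.1 y.2 i]
    exact congrArg (fun k : j2 => (k : Equiv.Perm (Fin SporPres.Suz.tab.size)) (pt i)) h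
  have hge := Nat.card_le_card_of_injective _ hinj
  rw [HallJanko.card_G100] at hge
  have hle' : j2.subgroupOf g6 ≤
      (MulAction.stabilizer (Equiv.Perm (Fin SporPres.Suz.tab.size)) beta).subgroupOf g6 :=
    fun a ha => (j2_le ha).2
  refine (Subgroup.eq_of_le_of_card_ge hle' ?_).symm
  rw [card_stab_beta, Nat.card_congr (Subgroup.subgroupOfEquivOfLe (j2_le.trans inf_le_left)).toEquiv]
  exact hge

theorem card_j2 : Nat.card j2 = 604800 := by
  rw [← Nat.card_congr (Subgroup.subgroupOfEquivOfLe (j2_le.trans inf_le_left)).toEquiv, ← stab_eq_j2,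
    card_stab_beta]

theorem j2_equiv : Nonempty (j2 ≃* HallJanko.G100) := by
  choose f hf1 hf2 using rel_g100
  let F : HallJanko.G100 → j2 := fun τ => ⟨f τ.1 τ.2, hf1 _ _⟩
  have hF : ∀ (τ : HallJanko.G100) i, (F τ : Equiv.Perm (Fin SporPres.Suz.tab.size)) (pt i) = pt (τ.1 i) :=
    fun τ i => hf2 _ _ i
  have hinj : Function.Injective F := fun x y h =>
    Subtype.ext (Equiv.ext fun i => pt_injective (by rw [← hF, ← hF, h]))
  haveI : Finite HallJanko.G100 := inferInstance
  have hbij := hinj.bijective_of_nat_card_le (by rw [card_j2, HallJanko.card_G100])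
  have hmul : ∀ x y, F (x * y) = F x * F y := by
    intro x y
    obtain ⟨z, hz⟩ := hbij.2 (F x * F y)
    rw [← hz]
    refine congrArg F (Subtype.ext (Equiv.ext fun i => pt_injective ?_))
    show pt (x.1 (y.1 i)) = pt (z.1 i)
    rw [← hF z i, hz, Subgroup.coe_mul, Equiv.Perm.mul_apply, hF, hF]
  exact ⟨(MulEquiv.ofBijective (MonoidHom.mk' F hmul) hbij).symm⟩

/-- The stabiliser in G₂(4). -/
noncomputable abbrev stab6 : Subgroup g6 :=
  (MulAction.stabilizer (Equiv.Perm (Fin SporPres.Suz.tab.size)) beta).subgroupOf g6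

theorem stab6_iso : Cfsg.Spor.IsoJ2 stab6 := by
  obtain ⟨e⟩ := j2_equiv
  exact ⟨((MulEquiv.subgroupCongr stab_eq_j2).trans
    ((Subgroup.subgroupOfEquivOfLe (j2_le.trans inf_le_left)).trans e)).trans HallJanko.j2Equiv100.symm⟩

theorem stab6_coatom : IsCoatom stab6 := Prim.isCoatom_stab good outer_ok beta.2

theorem stab6_meet (x : g6) (hx : x ∉ stab6) :
    IsCoatom ((stab6 ⊓ stab6.map (MulAut.conj x).toMonoidHom).subgroupOf stab6) := by
  set y := (x : Equiv.Perm (Fin SporPres.Suz.tab.size)) beta with hy0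
  have hy : y ≠ beta := fun e => hx e
  have hf := facts_ok
  simp only [Bool.and_eq_true, List.all_eq_true, beq_iff_eq, Bool.or_eq_true, List.contains_iff_mem,
    decide_eq_true_eq] at hf
  have hok := outer_ok
  simp only [Prim.ok, Bool.and_eq_true] at hok
  have hmem := ((Tab.orbit_eq good hok.1.1.1.1.1 hok.1.1.1.1.2 (K := g6) rfl beta.2).2 y).1 ⟨x, rfl⟩
  have hW : lines.W = hundred.W := hf.1.1.1.1.1.1.1.1.1.1.2
  have hcoat : IsCoatom ((MulAction.stabilizer (Equiv.Perm (Fin SporPres.Suz.tab.size)) y).subgroupOf j2) := by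
    rcases hf.2 _ hmem with (h | h) | h
    · exact absurd (Fin.ext h) hy
    · have hok := hundred_ok
      simp only [Prim.ok, Bool.and_eq_true] at hok
      have hb : hundred.b < SporPres.Suz.tab.size := hf.1.1.1.1.1.1.1.1.1.1.1.1.1.2
      exact Prim.isCoatom_stab_apply good hundred_ok hb
        (((Tab.orbit_eq good hok.1.1.1.1.1 hok.1.1.1.1.2 (K := j2) rfl hb).2 y).2 h)
    · have hok := lines_ok
      simp only [Prim.ok, Bool.and_eq_true] at hok
      have hb : lines.b < SporPres.Suz.tab.size := hf.1.1.1.1.1.1.1.1.1.1.1.1.2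
      have e : lines.grp good = j2 := by rw [j2, Prim.grp, Prim.grp, hW]
      rw [← e]
      exact Prim.isCoatom_stab_apply good lines_ok hb
        (((Tab.orbit_eq good hok.1.1.1.1.1 hok.1.1.1.1.2 (K := lines.grp good) rfl hb).2 y).2 h)
  let ψ : stab6 ≃* j2 := (MulEquiv.subgroupCongr stab_eq_j2).trans
    (Subgroup.subgroupOfEquivOfLe (j2_le.trans inf_le_left))
  convert (OrderIso.isCoatom_iff (MulEquiv.mapSubgroup ψ.symm) _).2 hcoat using 1
  ext a
  show _ ↔ a ∈ Subgroup.map ψ.symm.toMonoidHom _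
  rw [Subgroup.mem_map_equiv, MulEquiv.symm_symm, Subgroup.mem_subgroupOf, Subgroup.mem_inf,
    Subgroup.mem_map_equiv, MulAut.conj_symm_apply, Subgroup.mem_subgroupOf]
  refine Iff.trans (and_iff_right a.2) ?_
  show ((x : Equiv.Perm (Fin SporPres.Suz.tab.size))⁻¹ * _ * x) beta = beta ↔
    (_ : Equiv.Perm (Fin SporPres.Suz.tab.size)) y = y
  rw [Equiv.Perm.mul_apply, Equiv.Perm.mul_apply, ← hy0, Equiv.Perm.inv_def, Equiv.symm_apply_eq, ← hy0]
  rfl

/-- A transfer along isomorphisms. -/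
theorem transfer {G H : Type*} [Group G] [Group H] (e : G ≃* H) (S : Subgroup G)
    (h1 : IsCoatom S) (h2 : Cfsg.Spor.IsoJ2 S)
    (h3 : ∀ x : G, x ∉ S → IsCoatom ((S ⊓ S.map (MulAut.conj x).toMonoidHom).subgroupOf S)) :
    ∃ T : Subgroup H, IsCoatom T ∧ Cfsg.Spor.IsoJ2 T ∧
      ∀ x : H, x ∉ T → IsCoatom ((T ⊓ T.map (MulAut.conj x).toMonoidHom).subgroupOf T) := by
  let ψ : S ≃* ↥(S.map e.toMonoidHom) := S.equivMapOfInjective _ e.injective
  refine ⟨S.map e.toMonoidHom, (OrderIso.isCoatom_iff (MulEquiv.mapSubgroup e) _).2 h1,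
    ⟨ψ.symm.trans h2.some⟩, fun x hx => ?_⟩
  rw [Subgroup.mem_map_equiv] at hx
  convert (OrderIso.isCoatom_iff (MulEquiv.mapSubgroup ψ) _).2 (h3 _ hx) using 1
  ext a
  show _ ↔ a ∈ Subgroup.map ψ.toMonoidHom _
  simp only [Subgroup.mem_map_equiv, Subgroup.mem_subgroupOf, Subgroup.mem_inf, MulAut.conj_symm_apply,
    map_mul, map_inv]
  have hval : ((ψ.symm a : S) : G) = e.symm (a : H) := by
    have h := congrArg Subtype.val (ψ.apply_symm_apply a)
    have h' : e ((ψ.symm a : S) : G) = (a : H) := h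
    rw [← h', MulEquiv.symm_apply_apply]
  rw [hval]

theorem g2_four {F : Type*} [Field F] [Fintype F] (hF : Fintype.card F = 4) :
    ∃ H : Subgroup (Cfsg.Lie.chevG2.group F), IsCoatom H ∧ Cfsg.Spor.IsoJ2 H ∧
      ∀ x : Cfsg.Lie.chevG2.group F, x ∉ H →
        IsCoatom ((H ⊓ H.map (MulAut.conj x).toMonoidHom).subgroupOf H) := by
  obtain ⟨e⟩ : Nonempty (SporPres.He.Four ≃+* F) :=
    ⟨FiniteField.ringEquivOfCardEq (by rw [SporPres.He.Four.card_four, hF])⟩
  obtain ⟨e6⟩ := SporPres.Suz.Chev.nonempty_equiv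
  have eF : Nonempty (↥(Cfsg.Lie.chevG2.group SporPres.He.Four) ≃* ↥(Cfsg.Lie.chevG2.group F)) :=
    ⟨{ toFun := fun g => ⟨Chev.gmap _ e.toRingHom g, Chev.G2.checked.gmap_group _ g.2⟩
       invFun := fun g => ⟨Chev.gmap _ e.symm.toRingHom g, Chev.G2.checked.gmap_group _ g.2⟩
       left_inv := fun g => Subtype.ext (by simp [Chev.gmap_gmap, Chev.gmap_id])
       right_inv := fun g => Subtype.ext (by simp [Chev.gmap_gmap, Chev.gmap_id])
       map_mul' := fun a b => Subtype.ext (map_mul _ _ _) }⟩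
  obtain ⟨eF⟩ := eF
  exact transfer (g6Equiv.symm.trans (e6.trans eF)) stab6 stab6_coatom stab6_iso stab6_meet

end Cfsg.Agent.Lib.G2Four
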