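import Cfsg.Agent.Lib.Coset.Action

/-!
# Maximality of point stabilisers from suborbit certificates
-/

set_option autoImplicit false

namespace Cfsg.Agent.Lib.G2Four

open Cfsg.Agent.Lib.Coset
open scoped Pointwise

/-- The data of a certificate: generators, base point, orbit, words fixing the base point, and for
each suborbit a representative word, its suborbit and the orbit it generates with the fixing words. -/
structure Prim where
  W : List (List ℕ)
  b : ℕ
  ss : List Tab.Step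
  fix : List (List ℕ)
  reps : List (List ℕ × List Tab.Step × List Tab.Step)

namespace Prim

variable (D : Prim)

/-- A word in the generators as a word in the letters. -/
def flat (wd : List ℕ) : List ℕ := wd.flatMap fun i => D.W.getD i []

/-- The checks. -/
noncomputable def ok (P : Tab) : Bool :=
  P.orbitOK D.W D.b D.ss && P.closedOK D.W D.b D.ss && decide (0 < D.ss.length) &&
    (D.fix.all fun f => (f.all fun i => decide (i < D.W.length)) && P.app (D.flat f) D.b == D.b) &&
    (D.reps.all fun e => (e.1.all fun i => decide (i < D.W.length)) &&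
      P.orbitOK (D.fix.map D.flat) (P.app (D.flat e.1) D.b) e.2.1 &&
      P.orbitOK (D.fix.map D.flat ++ [D.flat e.1]) D.b e.2.2 && e.2.2.length == D.ss.length) &&
    (Tab.pts D.b D.ss).all fun q => q == D.b ||
      D.reps.any fun e => (Tab.pts (P.app (D.flat e.1) D.b) e.2.1).contains q

variable {D} {P : Tab}

/-- The group of the generators. -/
noncomputable abbrev grp (D : Prim) (h : P.Good) : Subgroup (Equiv.Perm (Fin P.size)) :=
  Subgroup.closure (ev (P.perm h) '' {w | w ∈ D.W})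

theorem ev_flat_mem (h : P.Good) : ∀ {wd : List ℕ}, (∀ i ∈ wd, i < D.W.length) →
    ev (P.perm h) (D.flat wd) ∈ D.grp h := by
  intro wd
  induction wd with
  | nil => intro _; rw [flat, List.flatMap_nil, ev_nil]; exact one_mem _
  | cons a wd ih =>
    intro hw
    rw [flat, List.flatMap_cons, ev_append]
    refine mul_mem (Subgroup.subset_closure ⟨_, ?_, rfl⟩) (ih fun i hi => hw i (List.mem_cons_of_mem _ hi))
    show D.W.getD a [] ∈ D.W
    rw [List.getD_eq_getElem _ _ (hw a (List.mem_cons_self ..))]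
    exact List.getElem_mem _

theorem isCoatom_stab (h : P.Good) (hok : D.ok P = true) (hb : D.b < P.size) :
    IsCoatom ((MulAction.stabilizer (Equiv.Perm (Fin P.size)) (⟨D.b, hb⟩ : Fin P.size)).subgroupOf
      (D.grp h)) := by
  classical
  simp only [ok, Bool.and_eq_true, decide_eq_true_eq, List.all_eq_true, Bool.or_eq_true, beq_iff_eq,
    List.any_eq_true, List.contains_iff_mem] at hok
  obtain ⟨⟨⟨⟨⟨horb, hcl⟩, hpos⟩, hfix⟩, hreps⟩, hcover⟩ := hok
  set b0 : Fin P.size := ⟨D.b, hb⟩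
  set A := D.grp h with hA
  obtain ⟨hcard, hmem⟩ := Tab.orbit_eq h horb hcl (K := A) rfl hb
  have hlet : ∀ w ∈ D.W, ∀ g ∈ w, g < P.gens := by
    simp only [Tab.orbitOK, Bool.and_eq_true, decide_eq_true_eq, List.all_eq_true] at horb
    exact horb.1.2
  have hflat : ∀ {wd : List ℕ}, (∀ i ∈ wd, i < D.W.length) → ∀ g ∈ D.flat wd, g < P.gens := by
    intro wd hw g hg
    simp only [flat, List.mem_flatMap] at hg
    obtain ⟨i, hi, hg⟩ := hg
    rw [List.getD_eq_getElem _ _ (hw i hi)] at hg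
    exact hlet _ (List.getElem_mem _) g hg
  refine ⟨fun htop => ?_, fun M hM => ?_⟩
  · have hfixall : ∀ a ∈ A, a b0 = b0 := fun a ha => by
      have : (⟨a, ha⟩ : A) ∈ (MulAction.stabilizer (Equiv.Perm (Fin P.size)) b0).subgroupOf A :=
        htop ▸ Subgroup.mem_top _
      exact this
    have hone : (MulAction.orbit A b0).ncard ≤ 1 := by
      refine (Set.ncard_le_ncard (t := {b0}) ?_ (Set.toFinite _)).trans (Set.ncard_singleton b0).le
      rintro _ ⟨⟨a, ha⟩, rfl⟩
      exact hfixall a ha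
    have : (MulAction.orbit A b0).ncard = D.ss.length + 1 := hcard
    omega
  · have hstab : ∀ a : A, (a : Equiv.Perm (Fin P.size)) b0 = b0 → a ∈ M := fun a ha => hM.le ha
    obtain ⟨x, hxM, hx⟩ := SetLike.exists_of_lt hM
    have hxb : (x : Equiv.Perm (Fin P.size)) b0 ≠ b0 := fun e => hx e
    have hxo : (x : Equiv.Perm (Fin P.size)) b0 ∈ MulAction.orbit A b0 := ⟨x, rfl⟩
    obtain ⟨e, he, hq⟩ := (hcover _ ((hmem _).1 hxo)).resolve_left fun e => hxb (Fin.ext e)
    obtain ⟨⟨⟨hwd, hs1⟩, hs2⟩, hlen⟩ := hreps e he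
    have hg := ev_flat_mem h hwd
    let g : A := ⟨_, hg⟩
    have hr : P.app (D.flat e.1) D.b = ((g : Equiv.Perm (Fin P.size)) b0 : ℕ) :=
      (Tab.ev_perm_apply h _ (hflat hwd) b0).symm
    have hrlt : P.app (D.flat e.1) D.b < P.size := hr ▸ (Fin.is_lt _)
    -- the fixing words
    let F : Subgroup (Equiv.Perm (Fin P.size)) := M.map A.subtype
    have hfixmem : ∀ w ∈ D.fix.map D.flat, ev (P.perm h) w ∈ F := by
      intro w hw
      obtain ⟨f, hf, rfl⟩ := List.mem_map.1 hw
      refine ⟨⟨_, ev_flat_mem h (hfix f hf).1⟩, hstab _ (Fin.ext ?_), rfl⟩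
      exact (Tab.ev_perm_apply h _ (hflat (hfix f hf).1) b0).trans (hfix f hf).2
    obtain ⟨S, -, hS, hSm⟩ := Tab.orbit_spec h hs1 hfixmem hrlt
    obtain ⟨y, hy, hyv⟩ := (hSm _).2 hq
    obtain ⟨⟨_, m, hm, rfl⟩, hm2⟩ := hS y hy
    have hyx : y = (x : Equiv.Perm (Fin P.size)) b0 := Fin.ext hyv
    have hm3 : (m : Equiv.Perm (Fin P.size)) ((g : Equiv.Perm (Fin P.size)) b0) =
        (x : Equiv.Perm (Fin P.size)) b0 := by
      rw [← hyx, ← hm2, show (g : Equiv.Perm (Fin P.size)) b0 = ⟨_, hrlt⟩ from Fin.ext hr.symm]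
      rfl
    have hgM : g ∈ M := by
      have h1 : g⁻¹ * m⁻¹ * x ∈ M := hstab _ (by
        show ((g : Equiv.Perm (Fin P.size))⁻¹ * (m : Equiv.Perm (Fin P.size))⁻¹ *
          (x : Equiv.Perm (Fin P.size))) b0 = b0
        rw [Equiv.Perm.mul_apply, ← hm3, Equiv.Perm.mul_apply]
        simp)
      have h2 := M.inv_mem (M.mul_mem h1 (M.inv_mem (M.mul_mem (M.inv_mem hm) hxM)))
      have h3 : (g⁻¹ * m⁻¹ * x * (m⁻¹ * x)⁻¹)⁻¹ = g := by group
      rwa [h3] at h2
    have hall : ∀ w ∈ D.fix.map D.flat ++ [D.flat e.1], ev (P.perm h) w ∈ F := by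
      intro w hw
      rcases List.mem_append.1 hw with hw | hw
      · exact hfixmem w hw
      · rw [List.mem_singleton.1 hw]; exact ⟨g, hgM, rfl⟩
    obtain ⟨T, hT, hTo, -⟩ := Tab.orbit_spec h hs2 hall hb
    have hsub : (T : Set (Fin P.size)) ⊆ MulAction.orbit A b0 := fun y hy => by
      obtain ⟨v, hvy⟩ := hTo y hy
      obtain ⟨u, -, huv⟩ := v.2
      refine ⟨⟨v.1, ?_⟩, hvy⟩
      rw [← huv]; exact u.2
    have heq := Set.eq_of_subset_of_ncard_le hsub
      (by rw [Set.ncard_coe_finset, hT, hcard, hlen]) (Set.toFinite _)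
    rw [eq_top_iff]
    intro a _
    have ha : (a : Equiv.Perm (Fin P.size)) b0 ∈ (T : Set (Fin P.size)) := heq ▸ ⟨a, rfl⟩
    obtain ⟨⟨_, u, hu, rfl⟩, hu2⟩ := hTo _ ha
    have h1 : u⁻¹ * a ∈ M := hstab _ (by
      show ((u : Equiv.Perm (Fin P.size))⁻¹ * (a : Equiv.Perm (Fin P.size))) b0 = b0
      rw [Equiv.Perm.mul_apply, ← hu2]
      exact Equiv.symm_apply_apply (u : Equiv.Perm (Fin P.size)) b0)
    simpa using M.mul_mem hu h1

theorem isCoatom_stab_apply (h : P.Good) (hok : D.ok P = true) (hb : D.b < P.size) {y : Fin P.size}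
    (hy : y ∈ MulAction.orbit (D.grp h) (⟨D.b, hb⟩ : Fin P.size)) :
    IsCoatom ((MulAction.stabilizer (Equiv.Perm (Fin P.size)) y).subgroupOf (D.grp h)) := by
  obtain ⟨k, rfl⟩ := hy
  convert (OrderIso.isCoatom_iff (MulEquiv.mapSubgroup (MulAut.conj k)) _).2 (isCoatom_stab h hok hb)
    using 1
  ext a
  show _ ↔ a ∈ Subgroup.map (MulAut.conj k).toMonoidHom _
  rw [Subgroup.mem_map_equiv, MulAut.conj_symm_apply, Subgroup.mem_subgroupOf,
    Subgroup.mem_subgroupOf, MulAction.mem_stabilizer_iff, MulAction.mem_stabilizer_iff, Subgroup.coe_mul,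
    Subgroup.coe_mul, Subgroup.coe_inv, mul_smul, mul_smul, inv_smul_eq_iff]
  rfl

end Prim

end Cfsg.Agent.Lib.G2Four
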